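import Mathlib
import Cfsg.Agent.Lib.Helper35.JR.Defs

/-!
# JR package [LOC] (S3206): the local automorphism statement (unconditional form)
-/

set_option autoImplicit false

namespace Cfsg.Agent.Lib.Helper79.JR

open Cfsg Cfsg.Agent.Lib.Helper35.JR

universe u

/-- Elements of the join of two elementwise commuting subgroups are products. -/
theorem mem_sup_comm79 {G : Type u} [Group G] (A B : Subgroup G)
    (hc : ∀ a ∈ A, ∀ b ∈ B, a * b = b * a) {x : G} (hx : x ∈ A ⊔ B) :
    ∃ a ∈ A, ∃ b ∈ B, x = a * b := by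
  rw [Subgroup.sup_eq_closure] at hx
  induction hx using Subgroup.closure_induction with
  | mem y hy =>
    rcases hy with hy | hy
    · exact ⟨y, hy, 1, B.one_mem, by simp⟩
    · exact ⟨1, A.one_mem, y, hy, by simp⟩
  | one => exact ⟨1, A.one_mem, 1, B.one_mem, by simp⟩
  | mul y z _ _ ihy ihz =>
    obtain ⟨a, ha, b, hb, rfl⟩ := ihy
    obtain ⟨a', ha', b', hb', rfl⟩ := ihz
    refine ⟨a * a', A.mul_mem ha ha', b * b', B.mul_mem hb hb', ?_⟩
    have := hc a' ha' b hb
    calc a * b * (a' * b') = a * (b * a') * b' := by group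
      _ = a * (a' * b) * b' := by rw [← this]
      _ = a * a' * (b * b') := by group
  | inv y _ ih =>
    obtain ⟨a, ha, b, hb, rfl⟩ := ih
    refine ⟨a⁻¹, A.inv_mem ha, b⁻¹, B.inv_mem hb, ?_⟩
    have := hc a ha b hb
    rw [this]; group

/-- [LOC] the local automorphism statement. -/
theorem pkgLoc : PkgLoc.{u} := by
  intro G _ _ habel t ht E hE hEL ψ k hψ S htS hfix
  obtain ⟨hZC, hEC, hcomm, hmeet, hsup⟩ := hE
  obtain ⟨hsq, hT4, hβ⟩ := hEL
  have hdec : ∀ x ∈ Subgroup.centralizer ({t} : Set G),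
      ∃ a ∈ Subgroup.zpowers t, ∃ e ∈ E, x = a * e := by
    intro x hx
    rw [← hsup] at hx
    exact mem_sup_comm79 _ _ hcomm hx
  have hzS : Subgroup.zpowers t ≤ (S : Subgroup G) := by
    rw [Subgroup.zpowers_le]; exact htS
  have hψz : ∀ a ∈ Subgroup.zpowers t, ψ a = a := fun a ha => hfix a (hzS ha)
  have htt : t ^ 2 = 1 := by rw [← ht]; exact pow_orderOf_eq_one t
  have ht2 : ∀ a ∈ Subgroup.zpowers t, a ^ 2 = 1 := by
    intro a ha
    obtain ⟨i, rfl⟩ := Subgroup.mem_zpowers_iff.mp ha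
    rw [← zpow_natCast, ← zpow_mul, mul_comm, zpow_mul, zpow_natCast, htt, one_zpow]
  have hψt : ψ t = t := hfix t htS
  have hψC : ∀ x ∈ Subgroup.centralizer ({t} : Set G),
      ψ x ∈ Subgroup.centralizer ({t} : Set G) := by
    intro x hx
    rw [Subgroup.mem_centralizer_iff] at hx ⊢
    intro h hh
    rw [Set.mem_singleton_iff] at hh
    subst hh
    have := hx h rfl
    calc h * ψ x = ψ h * ψ x := by rw [hψt]
      _ = ψ (h * x) := (map_mul ψ h x).symm
      _ = ψ (x * h) := by rw [this]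
      _ = ψ x * h := by rw [map_mul, hψt]
  have hsqE : ∀ x ∈ Subgroup.centralizer ({t} : Set G), x ^ 2 ∈ E := by
    intro x hx
    obtain ⟨a, ha, e, he, rfl⟩ := hdec x hx
    have hae : a * e = e * a := hcomm a ha e he
    have : (a * e) ^ 2 = e ^ 2 := by
      rw [pow_two, pow_two]
      calc a * e * (a * e) = a * (e * a) * e := by group
        _ = a * (a * e) * e := by rw [← hae]
        _ = a ^ 2 * (e * e) := by rw [pow_two]; group
        _ = e * e := by rw [ht2 a ha, one_mul]
    rw [this]; exact E.pow_mem he 2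
  have hψE : ∀ e ∈ E, ψ e ∈ E := by
    intro e he
    have key : ∀ y : ↥E, y ∈ Subgroup.closure {y : ↥E | ∃ x : ↥E, x ^ 2 = y} →
        ψ (y : G) ∈ E := by
      intro y hy
      induction hy using Subgroup.closure_induction with
      | mem z hz =>
        obtain ⟨x, rfl⟩ := hz
        have : ψ ((x ^ 2 : ↥E) : G) = (ψ (x : G)) ^ 2 := by
          rw [Subgroup.coe_pow, map_pow]
        rw [this]
        exact hsqE _ (hψC _ (hEC x.2))
      | one => rw [Subgroup.coe_one, map_one]; exact E.one_mem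
      | mul y z _ _ ihy ihz => rw [Subgroup.coe_mul, map_mul]; exact E.mul_mem ihy ihz
      | inv y _ ih => rw [Subgroup.coe_inv, map_inv]; exact E.inv_mem ih
    exact key ⟨e, he⟩ (by rw [hsq]; trivial)
  -- the restriction of ψ to E
  let β₀ : ↥E →* ↥E := (ψ.toMonoidHom.comp E.subtype).codRestrict E (fun e => hψE e e.2)
  have hβ₀ : ∀ e : ↥E, ((β₀ e : ↥E) : G) = ψ (e : G) := fun e => rfl
  have hβ₀inj : Function.Injective β₀ := by
    intro x y hxy
    have := congrArg (fun z : ↥E => (z : G)) hxy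
    simp only [hβ₀] at this
    exact Subtype.ext (ψ.injective this)
  let β : ↥E ≃* ↥E := MulEquiv.ofBijective β₀ (Finite.injective_iff_bijective.mp hβ₀inj)
  have hβapp : ∀ e : ↥E, ((β e : ↥E) : G) = ψ (e : G) := fun e => rfl
  have hβpow : ∀ (n : ℕ) (e : ↥E), (((β ^ n) e : ↥E) : G) = (ψ ^ n) (e : G) := by
    intro n
    induction n with
    | zero => intro e; simp
    | succ n ih =>
      intro e
      rw [pow_succ, pow_succ, MulAut.mul_apply, MulAut.mul_apply, ih, hβapp]
  have hβk : β ^ (2 ^ k) = 1 := by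
    ext e
    rw [hβpow, hψ]; rfl
  -- the Sylow 2-subgroup S ∩ E of E
  have hcommQ : ∀ (Q : Subgroup ↥E), ∀ a ∈ Subgroup.zpowers t, ∀ b ∈ Q.map E.subtype,
      a * b = b * a := by
    intro Q a ha b hb
    obtain ⟨q, _, rfl⟩ := hb
    exact hcomm a ha q q.2
  have hSC : (S : Subgroup G) ≤ Subgroup.centralizer ({t} : Set G) := by
    intro s hs
    rw [Subgroup.mem_centralizer_iff]
    intro h hh
    rw [Set.mem_singleton_iff] at hh
    subst hh
    exact habel S h htS s hs
  let T : Sylow 2 ↥E :=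
    { toSubgroup := (S : Subgroup G).subgroupOf E
      isPGroup' := S.isPGroup'.comap_subtype
      is_maximal' := by
        intro Q hQ hle
        refine le_antisymm ?_ hle
        intro q hq
        have hR : IsPGroup 2 ↥(Subgroup.zpowers t ⊔ Q.map E.subtype) := by
          rintro ⟨g, hg⟩
          obtain ⟨a, ha, b, hb, rfl⟩ := mem_sup_comm79 _ _ (hcommQ Q) hg
          have hab : Commute a b := hcommQ Q a ha b hb
          obtain ⟨q', hq', rfl⟩ := hb
          obtain ⟨m, hm⟩ := hQ ⟨q', hq'⟩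
          have hm' : (q' : G) ^ 2 ^ m = 1 := by
            have := congrArg (fun z : ↥Q => ((z : ↥E) : G)) hm
            simpa using this
          have hab' : Commute a (q' : G) := hab
          have e1 : a ^ 2 ^ (m + 1) = 1 := by
            rw [pow_succ, mul_comm, pow_mul, ht2 a ha, one_pow]
          have e2 : (q' : G) ^ 2 ^ (m + 1) = 1 := by
            rw [pow_succ, pow_mul, hm', one_pow]
          refine ⟨m + 1, Subtype.ext ?_⟩
          show (a * (q' : G)) ^ 2 ^ (m + 1) = 1
          rw [hab'.mul_pow, e1, e2, one_mul]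
        have hSR : (S : Subgroup G) ≤ Subgroup.zpowers t ⊔ Q.map E.subtype := by
          intro s hs
          obtain ⟨a, ha, e, he, rfl⟩ := hdec s (hSC hs)
          have heS : e ∈ (S : Subgroup G) := by
            have : e = a⁻¹ * (a * e) := by group
            rw [this]; exact (S : Subgroup G).mul_mem ((S : Subgroup G).inv_mem (hzS ha)) hs
          have heQ : (⟨e, he⟩ : ↥E) ∈ Q := hle (Subgroup.mem_subgroupOf.mpr heS)
          exact Subgroup.mul_mem _ (Subgroup.mem_sup_left ha)
            (Subgroup.mem_sup_right ⟨⟨e, he⟩, heQ, rfl⟩)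
        have hRS := S.is_maximal' hR hSR
        rw [Subgroup.mem_subgroupOf]
        have : (q : G) ∈ Subgroup.zpowers t ⊔ Q.map E.subtype :=
          Subgroup.mem_sup_right ⟨q, hq, rfl⟩
        rw [hRS] at this
        exact this }
  have hfixT : ∀ x ∈ (T : Subgroup ↥E), β x = x := by
    intro x hx
    have hxS : (x : G) ∈ (S : Subgroup G) := Subgroup.mem_subgroupOf.mp hx
    exact Subtype.ext (by rw [hβapp]; exact hfix _ hxS)
  obtain ⟨v, hv, hconj⟩ := hβ β k hβk T hfixT
  have hvS : (v : G) ∈ (S : Subgroup G) := Subgroup.mem_subgroupOf.mp hv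
  refine ⟨(v : G), hvS, ?_⟩
  intro x hx
  obtain ⟨a, ha, e, he, rfl⟩ := hdec x hx
  have h1 : ψ e = (v : G) * e * (v : G)⁻¹ := by
    have := congrArg (fun z : ↥E => (z : G)) (hconj ⟨e, he⟩)
    simpa [hβapp] using this
  have hav : a * (v : G) = (v : G) * a := hcomm a ha v v.2
  rw [map_mul, hψz a ha, h1]
  calc a * ((v : G) * e * (v : G)⁻¹) = a * (v : G) * e * (v : G)⁻¹ := by group
    _ = (v : G) * a * e * (v : G)⁻¹ := by rw [hav]
    _ = (v : G) * (a * e) * (v : G)⁻¹ := by group

end Cfsg.Agent.Lib.Helper79.JR
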