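import Mathlib
import Cfsg.Agent.Lib.Helper35.JR.Defs

/-!
# JR package [PSL] (S3206): the two facts on `PSL₂(F)` with abelian Sylow 2-subgroups
-/

set_option autoImplicit false

namespace Cfsg.Agent.Lib.Helper79.JR

open Cfsg Cfsg.Agent.Lib.Helper35.JR

universe u

/-- In a finite field of odd order `2 ≠ 0`. -/
theorem two_ne_zero_of_odd_card (F : Type u) [Field F] [Fintype F] (hodd : Odd (Fintype.card F)) :
    (2 : F) ≠ 0 := by
  apply Ring.two_ne_zero
  intro h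
  have := FiniteField.even_card_of_char_two h
  rcases hodd with ⟨m, hm⟩
  omega

/-- `-1` is a sum of two squares in a finite field. -/
theorem exists_sq_add_sq_neg_one (F : Type u) [Field F] [Fintype F] :
    ∃ a b : F, a ^ 2 + b ^ 2 = -1 := by
  haveI : NeZero (ringChar F) := ⟨CharP.ringChar_ne_zero_of_finite F⟩
  obtain ⟨a, b, h⟩ := CharP.sq_add_sq F (ringChar F) (-1)
  exact ⟨a, b, by simpa using h⟩

/-- [PSL] -/
theorem pkgPSL : PkgSyl4.{u} → PkgKey0.{u} → PkgFodd.{u} → PkgPSL.{u} := by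
  intro hSyl hKey hFodd F _ _ hodd _ habel
  have h2 : (2 : F) ≠ 0 := two_ne_zero_of_odd_card F hodd
  obtain ⟨a, b, h⟩ := exists_sq_add_sq_neg_one F
  have hS := hSyl F h2 a b h habel
  refine ⟨fun P => ⟨(hS P).1, (hS P).2.1⟩, ?_⟩
  intro α k hα P hfix
  obtain ⟨g, hg⟩ := (hS P).2.2
  have hσ := hFodd F hodd (fun P x hx => (hS P).2.1 x hx)
  -- the conjugated automorphism
  let α' : Matrix.ProjectiveSpecialLinearGroup (Fin 2) F ≃*
      Matrix.ProjectiveSpecialLinearGroup (Fin 2) F := (MulAut.conj g)⁻¹ * α * MulAut.conj g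
  have hα'app : ∀ x, α' x = g⁻¹ * α (g * x * g⁻¹) * g := by
    intro x
    simp [α', MulAut.mul_apply, MulAut.conj_apply, MulAut.conj_inv_apply]
  have hα' : α' ^ (2 ^ k) = 1 := by
    have : α' = (MulAut.conj g)⁻¹ * α * ((MulAut.conj g)⁻¹)⁻¹ := by
      simp [α']
    rw [this, conj_pow, hα]; simp
  have hmemV : ∀ v ∈ V0 a b h, g * v * g⁻¹ ∈ (P : Subgroup (Matrix.ProjectiveSpecialLinearGroup (Fin 2) F)) := by
    intro v hv
    rw [hg]
    have : g⁻¹ * (g * v * g⁻¹) * g = v := by group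
    rw [this]; exact hv
  have hfixV : ∀ v ∈ V0 a b h, α' v = v := by
    intro v hv
    rw [hα'app, hfix _ (hmemV v hv)]
    group
  have hA : α' (pA F) = pA F := hfixV _ (by simp [V0])
  have hB : α' (pB a b h) = pB a b h := hfixV _ (by simp [V0])
  obtain ⟨v, hv, hconj⟩ := hKey F h2 a b h hσ α' k hα' hA hB
  refine ⟨g * v * g⁻¹, hmemV v hv, ?_⟩
  intro x
  have h1 := hconj (g⁻¹ * x * g)
  rw [hα'app] at h1
  have h3 : g * (g⁻¹ * x * g) * g⁻¹ = x := by group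
  rw [h3] at h1
  -- h1 : g⁻¹ * α x * g = v * (g⁻¹ * x * g) * v⁻¹
  calc α x = g * (g⁻¹ * α x * g) * g⁻¹ := by group
    _ = g * (v * (g⁻¹ * x * g) * v⁻¹) * g⁻¹ := by rw [h1]
    _ = g * v * g⁻¹ * x * (g * v * g⁻¹)⁻¹ := by group

end Cfsg.Agent.Lib.Helper79.JR
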